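import Groth.Prelude.Def_Curve
import Groth.Agent.VarietyA.RegToSmooth
import Groth.Agent.VarietyB.RedGeomRed
import Groth.Agent.Etalg.SepSol2
import Groth.Agent.Flat2B.SmoothGeom

/-!
# Geometric reducedness from one good point

* `geometricallyReduced_of_mem_smoothLocus`: an integral scheme of finite type over a field with one point in the
  smooth locus is geometrically reduced.
* `isSeparable_of_isReduced_tensor`: `L/k` algebraic, `K/k` algebraically closed, `L ⊗ K` reduced: `L/k` separable.
* `geometricallyReduced_of_regular_point`: `Y` integral, locally of finite type over `k`, `y : Y` with regular local ring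
  and residue field finite separable over `k`: `Y` is geometrically reduced.
-/

set_option autoImplicit false
universe u
open CategoryTheory CategoryTheory.Limits AlgebraicGeometry IsLocalRing TensorProduct

namespace Groth.Agent.Models.H125.GeomRedPt

/-- An integral scheme, locally of finite type over a field, with one smooth point is geometrically reduced. -/
theorem geometricallyReduced_of_mem_smoothLocus {k : Type u} [Field k] {Y : Scheme.{u}}
    (f : Y ⟶ Spec (CommRingCat.of k)) [IsIntegral Y] [LocallyOfFinitePresentation f] (y : Y)
    (hy : y ∈ f.smoothLocus) : GeometricallyReduced f := by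
  obtain ⟨_, ⟨V, hV, rfl⟩, hyV, hVU⟩ :=
    Y.isBasis_affineOpens.exists_subset_of_mem_open hy f.smoothLocus.isOpen
  obtain ⟨χ, hχ⟩ := Spec.map_surjective (hV.fromSpec ≫ f)
  let : Algebra k Γ(Y, V) := χ.hom.toAlgebra
  have hι : hV.fromSpec ≫ f = Spec.map (CommRingCat.ofHom (algebraMap k Γ(Y, V))) := hχ.symm
  have hVo : IsOpenImmersion hV.fromSpec := hV.isOpenImmersion_fromSpec
  have hsm : Smooth (hV.fromSpec ≫ f) := by
    rw [← Scheme.Hom.smoothLocus_eq_top_iff, ← Scheme.Hom.preimage_smoothLocus_eq]
    refine TopologicalSpace.Opens.ext (Set.eq_univ_of_forall fun z => ?_)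
    apply hVU
    have : hV.fromSpec z ∈ Set.range hV.fromSpec := ⟨z, rfl⟩
    rwa [hV.range_fromSpec] at this
  have hsm2 : Algebra.Smooth k Γ(Y, V) := by
    have h1 := hsm
    rw [hι, HasRingHomProperty.Spec_iff (P := @Smooth)] at h1
    exact RingHom.smooth_algebraMap.1 h1
  have hgr : Algebra.IsGeometricallyReduced k Γ(Y, V) := by
    rw [Algebra.isGeometricallyReduced_field_iff]
    exact Flat2B.SmoothGeom.isReduced_of_smooth_field (AlgebraicClosure k) _
  have hne : Nonempty (Spec (CommRingCat.of Γ(Y, V))) := by
    have : y ∈ Set.range hV.fromSpec := by rw [hV.range_fromSpec]; exact hyV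
    exact ⟨this.choose⟩
  have hloc : IsLocallyNoetherian Y := by
    have : IsLocallyNoetherian (Spec (CommRingCat.of k)) := inferInstance
    exact LocallyOfFiniteType.isLocallyNoetherian f
  have hdom : IsDominant hV.fromSpec := by
    refine ⟨?_⟩
    rw [DenseRange, hV.range_fromSpec]
    exact V.isOpen.dense ⟨y, hyV⟩
  exact VarietyB.RedGeomRed.geometricallyReduced_of_dense k f hV.fromSpec hι

/-- `L ⊗ K` reduced with `K` algebraically closed: `L` is geometrically reduced over `k`. -/
theorem isGeometricallyReduced_of_isReduced_tensor {k : Type u} [Field k] {L K : Type u} [CommRing L] [Field K]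
    [IsAlgClosed K] [Algebra k L] [Algebra k K] (h : _root_.IsReduced (L ⊗[k] K)) :
    Algebra.IsGeometricallyReduced k L := by
  rw [Algebra.isGeometricallyReduced_field_iff]
  let i : AlgebraicClosure k →ₐ[k] K := IsAlgClosed.lift
  let g : AlgebraicClosure k ⊗[k] L →ₐ[k] L ⊗[k] K :=
    ((Algebra.TensorProduct.comm k K L).toAlgHom).comp (Algebra.TensorProduct.map i (AlgHom.id k L))
  have hg : Function.Injective g := by
    refine (Algebra.TensorProduct.comm k K L).injective.comp ?_
    exact Module.Flat.rTensor_preserves_injective_linearMap (M := L) i.toLinearMap i.toRingHom.injective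
  exact isReduced_of_injective g hg

/-- A regular point with finite separable residue field makes an integral scheme geometrically reduced. -/
theorem geometricallyReduced_of_regular_point {k : Type u} [Field k] {Y : Scheme.{u}}
    (f : Y ⟶ Spec (CommRingCat.of k)) [IsIntegral Y] [LocallyOfFinitePresentation f] (y : Y)
    (hreg : IsRegularLocalRing (Y.presheaf.stalk y)) (φ : CommRingCat.of k ⟶ Y.residueField y)
    (hφ : Spec.map φ = Y.fromSpecResidueField y ≫ f) (hint : φ.hom.IsIntegral)
    (hred : letI := φ.hom.toAlgebra; Algebra.IsGeometricallyReduced k (Y.residueField y)) :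
    GeometricallyReduced f := by
  refine geometricallyReduced_of_mem_smoothLocus f y
    (VarietyA.RegToSmooth.mem_smoothLocus_of_isRegularLocalRing f y hreg φ hφ ?_)
  let := φ.hom.toAlgebra
  have h1 : Algebra.IsGeometricallyReduced k (Y.residueField y) := hred
  have h2 : Algebra.IsAlgebraic k (Y.residueField y) := by
    have : Algebra.IsIntegral k (Y.residueField y) := ⟨hint⟩
    infer_instance
  have h3 : Algebra.IsSeparable k (Y.residueField y) :=
    Etalg.SepSol2.isSeparable_of_isGeometricallyReduced k (Y.residueField y)
  have h4 : Algebra.FormallyEtale k (Y.residueField y) := Algebra.FormallyEtale.of_isSeparable k _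
  exact RingHom.formallySmooth_algebraMap.2 (inferInstance : Algebra.FormallySmooth k (Y.residueField y))

end Groth.Agent.Models.H125.GeomRedPt
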