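import Groth.Prelude.Def_BlowUp2
import Groth.Agent.Models.H125.GeomRedPt
import Groth.Agent.Divis.CartierStalk
import Mathlib.RingTheory.DiscreteValuationRing.TFAE

/-!
# A Cartier divisor which is the spectrum of a separable field

`Y` integral, locally of finite type over a field `k`, `g : Spec A ⟶ Y` a closed immersion over `k` whose kernel is an
effective Cartier ideal, `A` a field algebraic and geometrically reduced over `k`. Then `Y` is geometrically reduced.
-/

set_option autoImplicit false
universe u
open CategoryTheory CategoryTheory.Limits AlgebraicGeometry IsLocalRing TensorProduct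

namespace Groth.Agent.Models.H125.FieldDiv

open Groth.Agent.Divis.CartierBasic

/-- The local rings of the spectrum of a field are fields. -/
theorem isField_stalk_spec {A : Type u} [Field A] (z : Spec (CommRingCat.of A)) :
    IsField ((Spec (CommRingCat.of A)).presheaf.stalk z) := by
  have hf : IsField Γ(Spec (CommRingCat.of A), ⊤) :=
    MulEquiv.isField (Field.toIsField A)
      (Scheme.ΓSpecIso (CommRingCat.of A)).commRingCatIsoToRingEquiv.toMulEquiv
  let := (Spec (CommRingCat.of A)).presheaf.algebra_section_stalk
    (⟨z, trivial⟩ : (⊤ : (Spec (CommRingCat.of A)).Opens))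
  have hloc := (isAffineOpen_top (Spec (CommRingCat.of A))).isLocalization_stalk ⟨z, trivial⟩
  have h := IsField.localization_map_bijective (Rₘ := (Spec (CommRingCat.of A)).presheaf.stalk z)
    (M := ((isAffineOpen_top (Spec (CommRingCat.of A))).primeIdealOf ⟨z, trivial⟩).asIdeal.primeCompl)
    (fun h0 => h0 (Ideal.zero_mem _)) hf
  exact MulEquiv.isField hf (RingEquiv.ofBijective _ h).symm.toMulEquiv

/-- The local ring at a Cartier divisor which is the spectrum of a field is regular. -/
theorem isRegularLocalRing_of_field_divisor {Y : Scheme.{u}} [IsIntegral Y] [IsLocallyNoetherian Y]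
    {A : Type u} [Field A] (g : Spec (CommRingCat.of A) ⟶ Y) [IsClosedImmersion g]
    (hD : BlowUp.IsEffCartierIdeal g.ker) (z : Spec (CommRingCat.of A)) :
    IsRegularLocalRing (Y.presheaf.stalk (g z)) := by
  obtain ⟨a, ha, hIa⟩ := exists_stalkIdeal_eq_span hD (g z)
  have hs : stalkIdeal g.ker (g z) = maximalIdeal (Y.presheaf.stalk (g z)) := by
    rw [← Divis.CartierStalk.ker_stalkMap]
    have hsurj : Function.Surjective (g.stalkMap z).hom := g.stalkMap_surjective z
    let := (isField_stalk_spec z).toField
    exact eq_maximalIdeal (RingHom.ker_isMaximal_of_surjective (g.stalkMap z).hom hsurj)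
  have hm : maximalIdeal (Y.presheaf.stalk (g z)) = Ideal.span {a} := by rw [← hs, hIa]
  have hpir : IsPrincipalIdealRing (Y.presheaf.stalk (g z)) := by
    have h := (tfae_of_isNoetherianRing_of_isLocalRing_of_isDomain (Y.presheaf.stalk (g z))).out 0 4
    rw [h]
    exact ⟨⟨a, hm⟩⟩
  infer_instance

/-- **A separable field as Cartier divisor.** -/
theorem geometricallyReduced_of_field_divisor {k : Type u} [Field k] {Y : Scheme.{u}}
    (f : Y ⟶ Spec (CommRingCat.of k)) [IsIntegral Y] [LocallyOfFiniteType f]
    {A : Type u} [Field A] [Algebra k A] [Algebra.IsIntegral k A] [Algebra.IsGeometricallyReduced k A]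
    (g : Spec (CommRingCat.of A) ⟶ Y) [IsClosedImmersion g]
    (hg : g ≫ f = Spec.map (CommRingCat.ofHom (algebraMap k A))) (hD : BlowUp.IsEffCartierIdeal g.ker) :
    GeometricallyReduced f := by
  have hloc : IsLocallyNoetherian Y := by
    have : IsLocallyNoetherian (Spec (CommRingCat.of k)) := inferInstance
    exact LocallyOfFiniteType.isLocallyNoetherian f
  have hlfp : LocallyOfFinitePresentation f := inferInstance
  let z : Spec (CommRingCat.of A) := closedPoint A
  obtain ⟨φ, hφ⟩ := Spec.map_surjective (Y.fromSpecResidueField (g z) ≫ f)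
  let ψ : Y.residueField (g z) ⟶ CommRingCat.of A := Y.descResidueField (Scheme.stalkClosedPointTo g)
  have h1 : φ ≫ ψ = CommRingCat.ofHom (algebraMap k A) := by
    apply Spec.map_injective
    rw [Spec.map_comp, hφ, ← Category.assoc]
    rw [Scheme.descResidueField_stalkClosedPointTo_fromSpecResidueField, hg]
  let : Algebra k (Y.residueField (g z)) := φ.hom.toAlgebra
  let ψ' : Y.residueField (g z) →ₐ[k] A :=
    { ψ.hom with commutes' := fun r => congrArg (fun t => t.hom r) h1 }
  have hψ : Function.Injective ψ' := ψ.hom.injective
  refine GeomRedPt.geometricallyReduced_of_regular_point f (g z)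
    (isRegularLocalRing_of_field_divisor g hD z) φ hφ ?_ ?_
  · intro a
    have h2 : IsIntegral k (ψ' a) := Algebra.IsIntegral.isIntegral _
    exact (isIntegral_algHom_iff ψ' hψ).1 h2
  · exact Algebra.IsGeometricallyReduced.of_injective ψ' hψ

end Groth.Agent.Models.H125.FieldDiv
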