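import Groth.Prelude.Def_Coh
import Groth.Agent.Models.H125.GeomRedPt
import Mathlib.AlgebraicGeometry.Morphisms.Flat

/-!
# Global functions after extension of the base field

For `f : Y ⟶ Spec k` quasi-compact and quasi-separated and a field extension `K/k`:
`Γ(Y_K) = Γ(Y) ⊗ K`; for `K` algebraically closed `Γ(Y_K)` is reduced iff `Γ(Y)` is geometrically reduced over `k`.
-/

set_option autoImplicit false
universe u
open CategoryTheory CategoryTheory.Limits AlgebraicGeometry IsLocalRing TensorProduct

namespace Groth.Agent.Models.H125.GlobBC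

variable {k : Type u} [Field k] {Y : Scheme.{u}} (f : Y ⟶ Spec (CommRingCat.of k))

/-- A morphism to an affine scheme, on global functions. -/
theorem toSpecΓ_toGlobal {A : Type u} [CommRing A] {X : Scheme.{u}} (f : X ⟶ Spec (CommRingCat.of A)) :
    X.toSpecΓ ≫ Spec.map f.appTop ≫ Spec.map (Scheme.ΓSpecIso (CommRingCat.of A)).inv = f := by
  rw [← Scheme.toSpecΓ_naturality_assoc]
  simp

/-- The `k`-algebra `Γ(Y, ⊤)`. -/
@[reducible] noncomputable def topAlg : Algebra k Γ(Y, ⊤) :=
  ((Scheme.ΓSpecIso (CommRingCat.of k)).inv ≫ f.appTop).hom.toAlgebra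

theorem isPushout_top (K : Type u) [Field K] [Algebra k K] [QuasiCompact f] [QuasiSeparated f] :
    IsPushout ((Scheme.ΓSpecIso (CommRingCat.of k)).inv ≫ f.appTop)
      (CommRingCat.ofHom (algebraMap k K))
      (pullback.fst f (Spec.map (CommRingCat.ofHom (algebraMap k K)))).appTop
      ((Scheme.ΓSpecIso (CommRingCat.of K)).inv ≫
        (pullback.snd f (Spec.map (CommRingCat.ofHom (algebraMap k K)))).appTop) := by
  have hfl : Flat (Spec.map (CommRingCat.ofHom (algebraMap k K))) := by
    rw [HasRingHomProperty.Spec_iff (P := @Flat)]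
    exact (RingHom.flat_algebraMap_iff).mpr inferInstance
  have hc : CompactSpace Y := QuasiCompact.compactSpace_of_compactSpace f
  have hq : QuasiSeparatedSpace Y := quasiSeparatedSpace_of_quasiSeparated f
  have H := IsPullback.of_hasPullback f (Spec.map (CommRingCat.ofHom (algebraMap k K)))
  have h := isIso_pushoutSection_of_isQuasiSeparated_of_flat_right H
    (US := ⊤) (UT := ⊤) (UX := ⊤) (UY := ⊤) le_top le_top (by simp)
    (isAffineOpen_top _) (isAffineOpen_top _) isCompact_univ
    (isQuasiSeparated_univ_iff.mpr ‹_›)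
  have h := (isIso_pushoutSection_iff H
    (US := ⊤) (UT := ⊤) (UX := ⊤) (UY := ⊤) le_top le_top (by simp)).mp h
  have e1 : f.appLE ⊤ ⊤ le_top = f.appTop := Scheme.Hom.appLE_eq_app ..
  have e2 : (Spec.map (CommRingCat.ofHom (algebraMap k K))).appLE ⊤ ⊤ le_top =
    (Spec.map (CommRingCat.ofHom (algebraMap k K))).appTop := Scheme.Hom.appLE_eq_app ..
  have e3 : (pullback.fst f (Spec.map (CommRingCat.ofHom (algebraMap k K)))).appLE ⊤ ⊤ le_top =
    (pullback.fst f (Spec.map (CommRingCat.ofHom (algebraMap k K)))).appTop :=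
    Scheme.Hom.appLE_eq_app ..
  have e4 : (pullback.snd f (Spec.map (CommRingCat.ofHom (algebraMap k K)))).appLE ⊤ ⊤ le_top =
    (pullback.snd f (Spec.map (CommRingCat.ofHom (algebraMap k K)))).appTop :=
    Scheme.Hom.appLE_eq_app ..
  rw [e1, e2, e3, e4] at h
  refine h.of_iso (Scheme.ΓSpecIso (CommRingCat.of k)) (Iso.refl _)
    (Scheme.ΓSpecIso (CommRingCat.of K)) (Iso.refl _) ?_ ?_ ?_ ?_
  · simp
  · exact (Scheme.ΓSpecIso_naturality _)
  · simp
  · simp

theorem isReduced_tensor_iff (K : Type u) [Field K] [Algebra k K] [QuasiCompact f] [QuasiSeparated f] :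
    letI := topAlg f
    (_root_.IsReduced (Γ(Y, ⊤) ⊗[k] K) ↔
      _root_.IsReduced Γ(pullback f (Spec.map (CommRingCat.ofHom (algebraMap k K))), ⊤)) := by
  let := topAlg f
  have h2 : IsPushout (CommRingCat.ofHom (algebraMap k Γ(Y, ⊤))) (CommRingCat.ofHom (algebraMap k K))
      (pullback.fst f (Spec.map (CommRingCat.ofHom (algebraMap k K)))).appTop
      ((Scheme.ΓSpecIso (CommRingCat.of K)).inv ≫
        (pullback.snd f (Spec.map (CommRingCat.ofHom (algebraMap k K)))).appTop) := isPushout_top f K
  let e := ((CommRingCat.isPushout_tensorProduct k Γ(Y, ⊤) K).isoIsPushout _ _ h2).commRingCatIsoToRingEquiv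
  constructor
  · intro h
    exact isReduced_of_injective e.symm e.symm.injective
  · intro h
    exact isReduced_of_injective e e.injective

/-- `Γ(Y_K)` is reduced for one algebraically closed `K` iff `Γ(Y)` is geometrically reduced. -/
theorem isGeometricallyReduced_top (K : Type u) [Field K] [IsAlgClosed K] [Algebra k K] [QuasiCompact f]
    [QuasiSeparated f]
    (h : _root_.IsReduced Γ(pullback f (Spec.map (CommRingCat.ofHom (algebraMap k K))), ⊤)) :
    letI := topAlg f
    Algebra.IsGeometricallyReduced k Γ(Y, ⊤) := by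
  let := topAlg f
  exact GeomRedPt.isGeometricallyReduced_of_isReduced_tensor (K := K) ((isReduced_tensor_iff f K).2 h)

end Groth.Agent.Models.H125.GlobBC
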