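import Groth.Prelude.Def_BlowUp2
import Groth.Agent.Dix.VertGeom
import Groth.Agent.Models.H125.FieldDiv
import Groth.Agent.Models.H125.GlobBC
import Mathlib.AlgebraicGeometry.Artinian

/-!
# Cartier divisors on a curve whose ring of functions is the field of constants

* `isAffine_of_dim_zero`, `dim_subscheme_le`: effective Cartier divisors on an integral scheme of dimension `1` are
  zero-dimensional, hence affine when Noetherian;
* `geometricallyReduced_of_bijective`: if `Γ(Y) → Γ(E)` is bijective, `E` an effective Cartier divisor of a proper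
  integral curve over `k`, and `Γ(Y)` is geometrically reduced over `k`, then `Y` is geometrically reduced.
-/

set_option autoImplicit false
universe u
open CategoryTheory CategoryTheory.Limits AlgebraicGeometry IsLocalRing TensorProduct

namespace Groth.Agent.Models.H125.DivField

open Groth.Agent.Divis.CartierBasic

theorem isAffine_of_dim_zero {Z : Scheme.{u}} [IsNoetherian Z] (h : topologicalKrullDim Z ≤ 0) : IsAffine Z := by
  have h1 : IsLocallyArtinian Z := IsLocallyArtinian.of_topologicalKrullDim_le_zero h
  have h2 : IsArtinianScheme Z := { }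
  infer_instance

/-- The generic point of an integral scheme is not on an effective Cartier divisor. -/
theorem genericPoint_notMem {Y : Scheme.{u}} [IsIntegral Y] {E : Y.IdealSheafData}
    (hE : BlowUp.IsEffCartierIdeal E) : genericPoint Y ∉ E.support := by
  intro h
  obtain ⟨U, hxU, a, ha, hIa⟩ := hE (genericPoint Y)
  rw [Scheme.IdealSheafData.mem_support_iff_of_mem hxU, hIa] at h
  have hne : Nonempty U.1 := ⟨⟨_, hxU⟩⟩
  have ha0 : a ≠ 0 := nonZeroDivisors.ne_zero ha
  have h1 : genericPoint Y ∈ Y.basicOpen a := by
    by_contra h2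
    apply ha0
    have h3 : Y.basicOpen a = ⊥ := by
      rw [← TopologicalSpace.Opens.not_nonempty_iff_eq_bot]
      intro h4
      exact h2 (((genericPoint_spec Y).mem_open_set_iff (Y.basicOpen a).isOpen).2 (by simpa using h4))
    exact (basicOpen_eq_bot_iff a).1 h3
  rw [Scheme.mem_zeroLocus_iff] at h
  exact h a (Ideal.mem_span_singleton_self a) h1

theorem dim_subscheme_le {Y : Scheme.{u}} [IsIntegral Y] (hdim : topologicalKrullDim Y ≤ 1)
    {E : Y.IdealSheafData} (hE : BlowUp.IsEffCartierIdeal E) : topologicalKrullDim E.subscheme ≤ 0 := by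
  by_contra h
  have h1 : 1 ≤ topologicalKrullDim E.subscheme := by
    rw [topologicalKrullDim, Order.krullDim_nonpos_iff_forall_isMax] at h
    push Not at h
    obtain ⟨x, hx⟩ := h
    obtain ⟨y, hy⟩ := not_isMax_iff.1 hx
    exact Order.one_le_krullDim_iff.2 ⟨x, y, hy⟩
  have h2 := Dix.VertGeom.surjective_of_dim E.subschemeι E.subschemeι.isClosedEmbedding.isInducing
    E.subschemeι.isClosedEmbedding.isClosed_range h1 hdim
  apply genericPoint_notMem hE
  have h3 : genericPoint Y ∈ Set.range E.subschemeι := h2 _
  rwa [E.range_subschemeι] at h3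

/-- **A Cartier divisor with the same functions as the curve.** -/
theorem geometricallyReduced_of_bijective {k : Type u} [Field k] {Y : Scheme.{u}}
    (f : Y ⟶ Spec (CommRingCat.of k)) [IsIntegral Y] [IsProper f] (hdim : topologicalKrullDim Y ≤ 1)
    {E : Y.IdealSheafData} (hE : BlowUp.IsEffCartierIdeal E) (hf : IsField Γ(Y, ⊤))
    (hfin : letI := GlobBC.topAlg f; Module.Finite k Γ(Y, ⊤))
    (hbij : Function.Bijective E.subschemeι.appTop.hom)
    (hgr : letI := GlobBC.topAlg f; Algebra.IsGeometricallyReduced k Γ(Y, ⊤)) :
    GeometricallyReduced f := by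
  have hloc : IsLocallyNoetherian Y := by
    have : IsLocallyNoetherian (Spec (CommRingCat.of k)) := inferInstance
    exact LocallyOfFiniteType.isLocallyNoetherian f
  have hlocE : IsLocallyNoetherian E.subscheme := LocallyOfFiniteType.isLocallyNoetherian E.subschemeι
  have hc : CompactSpace Y := QuasiCompact.compactSpace_of_compactSpace f
  have hcE : CompactSpace E.subscheme := QuasiCompact.compactSpace_of_compactSpace E.subschemeι
  have hN : IsNoetherian E.subscheme := { }
  have haff : IsAffine E.subscheme := isAffine_of_dim_zero (dim_subscheme_le hdim hE)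
  let : Field Γ(Y, ⊤) := hf.toField
  let : Algebra k Γ(Y, ⊤) := GlobBC.topAlg f
  have hfin' : Module.Finite k Γ(Y, ⊤) := hfin
  have hgr' : Algebra.IsGeometricallyReduced k Γ(Y, ⊤) := hgr
  have hiso : IsIso E.subschemeι.appTop := (ConcreteCategory.isIso_iff_bijective _).2 hbij
  let g : Spec (CommRingCat.of Γ(Y, ⊤)) ⟶ Y :=
    Spec.map (inv E.subschemeι.appTop) ≫ E.subscheme.isoSpec.inv ≫ E.subschemeι
  have hg : g ≫ f = Spec.map (CommRingCat.ofHom (algebraMap k Γ(Y, ⊤))) := by
    have h1 : E.subscheme.isoSpec.inv ≫ E.subschemeι ≫ f =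
        Spec.map (E.subschemeι ≫ f).appTop ≫ Spec.map (Scheme.ΓSpecIso (CommRingCat.of k)).inv := by
      rw [Iso.inv_comp_eq]
      exact (GlobBC.toSpecΓ_toGlobal (E.subschemeι ≫ f)).symm
    have h2 : CommRingCat.ofHom (algebraMap k Γ(Y, ⊤)) =
        (Scheme.ΓSpecIso (CommRingCat.of k)).inv ≫ f.appTop := rfl
    rw [Category.assoc, Category.assoc, h1, h2, Scheme.Hom.comp_appTop, ← Spec.map_comp, ← Spec.map_comp]
    simp
  have hci : IsClosedImmersion g := inferInstance
  have hker : g.ker = E := by
    change (Spec.map (inv E.subschemeι.appTop) ≫ E.subscheme.isoSpec.inv ≫ E.subschemeι).ker = E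
    rw [Scheme.Hom.ker_comp_of_isIso, Scheme.Hom.ker_comp_of_isIso, Scheme.IdealSheafData.ker_subschemeι]
  exact FieldDiv.geometricallyReduced_of_field_divisor f g hg (by rw [hker]; exact hE)

/-- A homomorphism from a finite-dimensional field over `k` to an algebra of the same positive dimension is
bijective. -/
theorem bijective_of_finrank_eq {k A B : Type u} [Field k] [CommRing A] [CommRing B] [Algebra k A] [Algebra k B]
    (hA : IsField A) [Module.Finite k A] (u : A →ₐ[k] B) (h : Module.finrank k B = Module.finrank k A) :
    Function.Bijective u := by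
  let := hA.toField
  have h0 : 0 < Module.finrank k A := Module.finrank_pos
  have h1 : Module.Finite k B := Module.finite_of_finrank_pos (by rw [h]; exact h0)
  have h2 : Nontrivial B := by
    by_contra h3
    rw [not_nontrivial_iff_subsingleton] at h3
    rw [Module.finrank_zero_of_subsingleton] at h
    omega
  have h3 : Function.Injective u := u.toRingHom.injective
  exact ⟨h3, (LinearMap.injective_iff_surjective_of_finrank_eq_finrank (f := u.toLinearMap) h.symm).1 h3⟩

end Groth.Agent.Models.H125.DivField
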